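import Cfsg.Agent.H39.Bs.Count
import Cfsg.Agent.H59.Bs.Tor

/-!
# S5733, BS08 (b), (c) (helper39): block counts for orthogonal spaces of plus type

* `cj_mem_E`, `cj_mem_nQ` : transport along an isometry;
* `o_plus` : `ar j / (2 j) |O| ≤ |Bp ∩ nQ|`;
* `o_adj_E`, `o_adj_not` : `|O| ≤ 16 j |Bp ∩ E|`, `|O| ≤ 16 j |Bp ∩ SO \ E|` in odd characteristic.
-/

set_option autoImplicit false
set_option linter.unusedSectionVars false

namespace Cfsg.Agent.H39.Bs

open QuadraticMap Module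
open Cfsg.Agent.LieClassical.OrthCore
open Cfsg.Agent.H847.Bs
open Cfsg.Agent.H59.Bs (cj cj_apply cj_injective)

section Transport

variable {F V W : Type*} [Field F] [AddCommGroup V] [Module F V] [AddCommGroup W] [Module F W]
  {Q : QuadraticForm F V} {Q' : QuadraticForm F W} {e : V ≃ₗ[F] W}

theorem iso_symm (he : ∀ x, Q' (e x) = Q x) (y : W) : Q (e.symm y) = Q' y := by
  rw [← he, LinearEquiv.apply_symm_apply]

theorem polar_iso (he : ∀ x, Q' (e x) = Q x) (x y : V) : polar Q' (e x) (e y) = polar Q x y := by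
  simp only [QuadraticMap.polar, ← map_add, he _]

theorem cj_mul (e : V ≃ₗ[F] W) (g h : V ≃ₗ[F] V) : cj e (g * h) = cj e g * cj e h := by
  ext w
  obtain ⟨v, rfl⟩ := e.surjective w
  rw [cj_apply, LinearEquiv.mul_apply, LinearEquiv.mul_apply, cj_apply, cj_apply]

theorem cj_one (e : V ≃ₗ[F] W) : cj e 1 = 1 := by
  ext w
  obtain ⟨v, rfl⟩ := e.surjective w
  rw [cj_apply]
  rfl

theorem cj_mem_O (he : ∀ x, Q' (e x) = Q x) {g : V ≃ₗ[F] V} (hg : g ∈ O Q) : cj e g ∈ O Q' := by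
  intro w
  obtain ⟨v, rfl⟩ := e.surjective w
  rw [cj_apply, he, he]
  exact hg v

theorem cj_mem_E (he : ∀ x, Q' (e x) = Q x) {g : V ≃ₗ[F] V} (hg : g ∈ E Q) : cj e g ∈ E Q' := by
  induction hg using Subgroup.closure_induction with
  | mem x hx =>
    obtain ⟨u, w, hu, hw, rfl⟩ := hx
    have hu' : Q' (e u) = 0 := by rw [he, hu]
    have hw' : polar Q' (e u) (e w) = 0 := by rw [polar_iso he, hw]
    have h1 : cj e (siegel Q u w hu hw) = siegel Q' (e u) (e w) hu' hw' := by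
      ext y
      obtain ⟨v, rfl⟩ := e.surjective y
      rw [cj_apply, siegel_apply, siegel_apply, polar_iso he, polar_iso he, he]
      simp only [map_add, map_sub, map_smul]
    rw [h1]
    exact siegel_mem_E hu' hw'
  | one => rw [cj_one]; exact one_mem _
  | mul x y hx hy ihx ihy => rw [cj_mul]; exact mul_mem ihx ihy
  | inv x hx ihx =>
    have h1 : cj e x⁻¹ = (cj e x)⁻¹ := by
      rw [eq_inv_iff_mul_eq_one, ← cj_mul, inv_mul_cancel, cj_one]
    rw [h1]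
    exact inv_mem ihx

theorem cj_mem_slV {g : V ≃ₗ[F] V} (hg : g ∈ slV F V) : cj e g ∈ slV F W := by
  have h1 : LinearMap.det (g : V →ₗ[F] V) = 1 := hg
  show LinearMap.det ((cj e g : W ≃ₗ[F] W) : W →ₗ[F] W) = 1
  rw [← h1]
  exact LinearMap.det_conj (g : V →ₗ[F] V) e

theorem cj_mem_nQ (he : ∀ x, Q' (e x) = Q x) {g : V ≃ₗ[F] V} (hg : g ∈ nQ Q) : cj e g ∈ nQ Q' := by
  unfold nQ at hg ⊢
  split_ifs at hg ⊢ with h
  · exact cj_mem_E he hg
  · exact ⟨cj_mem_O he hg.1, cj_mem_slV hg.2⟩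

theorem conj_mem_nQ {g h : V ≃ₗ[F] V} (hg : g ∈ O Q) (hh : h ∈ nQ Q) : g * h * g⁻¹ ∈ nQ Q :=
  cj_mem_nQ (e := g) hg hh

theorem conj_mem_slV {g h : V ≃ₗ[F] V} (hh : h ∈ slV F V) : g * h * g⁻¹ ∈ slV F V :=
  cj_mem_slV (e := g) hh

/-- transport of a count -/
theorem card_cj_le [Finite V] (e : V ≃ₗ[F] W) {P : (V ≃ₗ[F] V) → Prop} {P' : (W ≃ₗ[F] W) → Prop}
    (h : ∀ g, P' g → P (cj e.symm g)) : Nat.card {x // P' x} ≤ Nat.card {x // P x} := by
  have : Finite (V ≃ₗ[F] V) := Finite.of_injective (fun g : V ≃ₗ[F] V => (g : V → V)) DFunLike.coe_injective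
  exact Nat.card_le_card_of_injective (fun x => (⟨cj e.symm x.1, h _ x.2⟩ : {x // P x})) fun x y hxy =>
    Subtype.ext (cj_injective e.symm (congrArg Subtype.val hxy))

end Transport

section Model

variable {F K : Type*} [Field F] [Field K] [Algebra F K] [Finite K]

theorem xt_mem_slV (t : Kˣ) : xt F t ∈ slV F (K × K) := by
  have hF : Finite F := Finite.of_injective _ (algebraMap F K).injective
  have hfd : Module.Finite F K := Module.Finite.of_finite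
  show LinearMap.det ((xt F t : (K × K) ≃ₗ[F] (K × K)) : (K × K) →ₗ[F] (K × K)) = 1
  have h1 : ((xt F t : (K × K) ≃ₗ[F] (K × K)) : (K × K) →ₗ[F] (K × K)) =
      LinearMap.prodMap (Cfsg.Agent.H46.Bs.mL F t : K →ₗ[F] K) (Cfsg.Agent.H46.Bs.mL F t⁻¹ : K →ₗ[F] K) := rfl
  rw [h1, LinearMap.det_prodMap, ← LinearMap.det_comp]
  have h2 : (Cfsg.Agent.H46.Bs.mL F t : K →ₗ[F] K) ∘ₗ (Cfsg.Agent.H46.Bs.mL F t⁻¹ : K →ₗ[F] K) = LinearMap.id := by
    ext x
    show (t : K) * (((t⁻¹ : Kˣ) : K) * x) = x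
    rw [← mul_assoc, Units.mul_inv, one_mul]
  rw [h2, LinearMap.det_id]

theorem two_mod {F : Type*} [Field F] [Finite F] (h2 : (2 : F) = 0) : Even (Nat.card F) := by
  have := Fintype.ofFinite F
  rw [Nat.card_eq_fintype_card, Nat.even_iff]
  apply FiniteField.even_card_of_char_two
  have h3 : (ringChar F) ∣ 2 := by
    rw [← ringChar.spec]
    exact_mod_cast h2
  exact ((Nat.dvd_prime Nat.prime_two).1 h3).resolve_left (CharP.ringChar_ne_one)

/-- in even characteristic every unit is a square -/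
theorem isSquare_of_two (h2 : (2 : F) = 0) (t : Kˣ) : IsSquare t := by
  have h3 : (2 : K) = 0 := by
    have : algebraMap F K 2 = 0 := by rw [h2, map_zero]
    rw [← this]
    exact (map_ofNat _ 2).symm
  have h4 := two_mod h3
  have h5 : Odd (Nat.card Kˣ) := by
    rw [Nat.card_units]
    obtain ⟨k, hk⟩ := h4
    have : 1 < Nat.card K := Finite.one_lt_card
    refine ⟨k - 1, ?_⟩
    omega
  obtain ⟨k, hk⟩ := h5
  refine ⟨t ^ (k + 1), ?_⟩
  rw [← pow_add, show k + 1 + (k + 1) = Nat.card Kˣ + 1 by omega, pow_succ, pow_card_eq_one', one_mul]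

theorem xt_mem_E_of_sq (hj : 3 ≤ finrank F K) {t : Kˣ} (ht : IsSquare t) : xt F t ∈ E (qS F K) := by
  have hF : Finite F := Finite.of_injective _ (algebraMap F K).injective
  have hfd : Module.Finite F K := Module.Finite.of_finite
  obtain ⟨s, rfl⟩ := ht
  rw [xt_mul]
  exact Cfsg.Agent.H749.sq_mem_E (Cfsg.Agent.LieClassical.OrthFinite.good_of_finite nondeg_qS
    (by rw [finrank_KK]; omega)) (xt_mem_O F s)

theorem xt_mem_nQ (hj : 3 ≤ finrank F K) (t : Kˣ) : xt F t ∈ nQ (qS F K) := by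
  unfold nQ
  split_ifs with h
  · exact xt_mem_E_of_sq hj (isSquare_of_two h t)
  · exact ⟨xt_mem_O F t, xt_mem_slV t⟩

/-- half of the units are squares -/
theorem card_sq : Nat.card Kˣ ≤ Nat.card {t : Kˣ // IsSquare t} * 2 := by
  refine Cfsg.Agent.H59.Bs.card_le_mul (fun t : Kˣ => (⟨t * t, t, rfl⟩ : {t : Kˣ // IsSquare t})) 2 ?_
  intro b
  by_cases hne : Nonempty {a : Kˣ // (⟨a * a, a, rfl⟩ : {t : Kˣ // IsSquare t}) = b}
  · obtain ⟨z0⟩ := hne
    refine le_trans ?_ (Cfsg.Agent.H46.Bs.card_pow_eq_one_le K 2 (by norm_num))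
    refine Nat.card_le_card_of_injective (fun z => ⟨z.1 * z0.1⁻¹, ?_⟩) ?_
    · have h4 : z.1 * z.1 = z0.1 * z0.1 := congrArg Subtype.val (z.2.trans z0.2.symm)
      rw [mul_pow, inv_pow, pow_two, pow_two, h4, mul_inv_cancel]
    · intro z z' h
      exact Subtype.ext (mul_right_cancel (congrArg Subtype.val h))
  · rw [not_nonempty_iff] at hne
    rw [Nat.card_of_isEmpty]
    exact Nat.zero_le _

theorem card_nonsq (h2 : (2 : F) ≠ 0) : Nat.card {t : Kˣ // IsSquare t} ≤ Nat.card {t : Kˣ // ¬ IsSquare t} := by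
  obtain ⟨ζ, hζ⟩ := IsCyclic.exists_generator (α := Kˣ)
  have h1 : ¬ IsSquare ζ := by
    rintro ⟨s, hs⟩
    have h3 := spin_gen (F := F) (K := K) h2 hζ
    rw [hs, map_mul, map_mul, Int.units_mul_self] at h3
    exact absurd h3 (by decide)
  refine Nat.card_le_card_of_injective (fun t => ⟨ζ * t.1, fun h => h1 ?_⟩) fun t t' h => Subtype.ext
    (mul_left_cancel (congrArg Subtype.val h))
  obtain ⟨a, ha⟩ := t.2
  obtain ⟨b, hb⟩ := h
  refine ⟨b * a⁻¹, ?_⟩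
  calc ζ = ζ * t.1 * t.1⁻¹ := by group
    _ = b * b * (a * a)⁻¹ := by rw [hb, ha]
    _ = b * a⁻¹ * (b * a⁻¹) := by rw [mul_inv]; exact mul_mul_mul_comm _ _ _ _

end Model

section Final

variable {F V : Type} [Field F] [Finite F] [AddCommGroup V] [Module F V] [Module.Finite F V]

/-- every orthogonal space of plus type is isometric to a split model -/
theorem exists_model (Q : QuadraticForm F V) (hQ : Nondeg Q) {j : ℕ} (hj : 1 ≤ j) (hd : finrank F V = 2 * j)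
    (hp : PlusT Q) : ∃ (K : Type) (_ : Field K) (_ : Algebra F K) (_ : Finite K) (e : V ≃ₗ[F] (K × K)),
      finrank F K = j ∧ ∀ x, qS F K (e x) = Q x := by
  obtain ⟨p, hpF⟩ := CharP.exists F
  have hp' : Fact p.Prime := ⟨CharP.char_is_prime F p⟩
  have : NeZero j := ⟨by omega⟩
  let L := FiniteField.Extension F p j
  have hfr : finrank F L = j := FiniteField.finrank_extension F p j
  have hfd : Module.Finite F L := inferInstance
  have hL : Finite L := Module.finite_of_finite F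
  obtain ⟨e, he⟩ := Cfsg.Agent.H932.exists_isometry hQ (nondeg_qS (F := F) (K := L)) ⟨j, by rw [hd, two_mul]⟩
    (by rw [hd, finrank_KK, hfr]) ⟨fun _ => pl_qS, fun _ => by
      obtain ⟨A, hA, hA'⟩ := hp
      exact ⟨A, hA.2, hA'⟩⟩
  exact ⟨L, inferInstance, inferInstance, hL, e, hfr, he⟩

theorem ar_nonpos {j : ℕ} (hj : j ≤ 2) : ar j ≤ 0 := by
  unfold ar
  interval_cases j <;> norm_num

/-- **BS08 (b)** -/
theorem o_plus (Q : QuadraticForm F V) (hQ : Nondeg Q) (j : ℕ) (hj : 1 ≤ j) (hd : finrank F V = 2 * j)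
    (hp : PlusT Q) :
    ar j / (2 * j) * (Nat.card (frmQ Q).Iso : ℝ) ≤ Nat.card {x : V ≃ₗ[F] V // x ∈ (frmQ Q).Bp ∧ x ∈ nQ Q} := by
  have hjR : (0 : ℝ) < 2 * j := by
    have : (1 : ℝ) ≤ j := by exact_mod_cast hj
    linarith
  by_cases hj3 : j ≤ 2
  · refine le_trans ?_ (Nat.cast_nonneg _)
    apply mul_nonpos_of_nonpos_of_nonneg _ (Nat.cast_nonneg _)
    exact div_nonpos_of_nonpos_of_nonneg (ar_nonpos hj3) hjR.le
  obtain ⟨K, _, _, _, e, hK, he⟩ := exists_model Q hQ hj hd hp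
  have hV : Finite V := Module.finite_of_finite F
  have h1 : Nat.card (frmQ Q).Iso ≤ Nat.card (frmQ (qS F K)).Iso :=
    Cfsg.Agent.H59.Bs.card_Iso_le (e := e) (polar_iso he) he
  have h2 : Nat.card {x : (K × K) ≃ₗ[F] (K × K) // x ∈ (frmQ (qS F K)).Bp ∧ x ∈ nQ (qS F K)} ≤
      Nat.card {x : V ≃ₗ[F] V // x ∈ (frmQ Q).Bp ∧ x ∈ nQ Q} := by
    refine card_cj_le e ?_
    rintro g ⟨hg1, hg2⟩
    exact ⟨Cfsg.Agent.H59.Bs.Bp_cj (e := e.symm) (polar_iso (iso_symm he)) (iso_symm he) hg1,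
      cj_mem_nQ (iso_symm he) hg2⟩
  have h3 := card_split (F := F) (K := K) (fun _ => True) (nQ (qS F K))
    (fun g hg x hx => conj_mem_nQ (mem_O_of_mem_Iso F hg) hx) (fun t _ _ => xt_mem_nQ (by omega) t)
  obtain ⟨y, hy, hy'⟩ := card_le_gd F K
  have h4 := hy' (fun _ => True)
  have hS : Nat.card K = Nat.card F ^ j := by rw [Module.natCard_eq_pow_finrank (K := F), hK]
  have h5 := num_b (Finite.one_lt_card (α := F)) hj hS hy
  rw [hK] at h3
  have hKu : Nat.card Kˣ + 1 = Nat.card K := by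
    rw [Nat.card_units]
    have := Finite.one_lt_card (α := K)
    omega
  have h6 : Nat.card {t : Kˣ // True} = Nat.card Kˣ := Nat.card_congr (Equiv.subtypeUnivEquiv fun _ => trivial)
  rw [h6] at h4
  set O₁ := Nat.card (frmQ Q).Iso
  set O₂ := Nat.card (frmQ (qS F K)).Iso
  set E₂ := Nat.card {t : Kˣ // Gd F t ∧ True}
  set B₂ := Nat.card {x : (K × K) ≃ₗ[F] (K × K) // x ∈ (frmQ (qS F K)).Bp ∧ x ∈ nQ (qS F K)} with hB₂
  set B₁ := Nat.card {x : V ≃ₗ[F] V // x ∈ (frmQ Q).Bp ∧ x ∈ nQ Q}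
  have h3' : O₂ * E₂ ≤ B₂ * (2 * (j * Nat.card Kˣ)) := h3
  have hN : (1 : ℝ) ≤ Nat.card Kˣ := by exact_mod_cast Nat.card_pos
  have h3R : (O₂ : ℝ) * E₂ ≤ B₂ * (2 * (j * Nat.card Kˣ)) := by exact_mod_cast h3'
  have h4R : (Nat.card Kˣ : ℝ) ≤ E₂ + (3 * y + 2 : ℕ) := by exact_mod_cast h4
  have hSR : (Nat.card K : ℝ) - 1 = Nat.card Kˣ := by
    have : (Nat.card Kˣ : ℝ) + 1 = Nat.card K := by exact_mod_cast hKu
    linarith
  rw [hSR] at h5
  have h7 : ar j * Nat.card Kˣ ≤ E₂ := by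
    unfold ar
    linarith
  have h1R : (O₁ : ℝ) ≤ O₂ := by exact_mod_cast h1
  have h2R : (B₂ : ℝ) ≤ B₁ := by exact_mod_cast h2
  by_cases har : ar j ≤ 0
  · refine le_trans ?_ (Nat.cast_nonneg _)
    apply mul_nonpos_of_nonpos_of_nonneg _ (Nat.cast_nonneg _)
    exact div_nonpos_of_nonpos_of_nonneg har hjR.le
  · push Not at har
    refine le_trans ?_ h2R
    rw [div_mul_eq_mul_div, div_le_iff₀ hjR]
    have hO2 : (0 : ℝ) ≤ O₂ := Nat.cast_nonneg _
    have h8 : ar j * O₁ * Nat.card Kˣ ≤ B₂ * (2 * j) * Nat.card Kˣ := by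
      calc ar j * O₁ * Nat.card Kˣ ≤ ar j * O₂ * Nat.card Kˣ := by gcongr
        _ = O₂ * (ar j * Nat.card Kˣ) := by ring
        _ ≤ O₂ * E₂ := by gcongr
        _ ≤ _ := h3R
        _ = _ := by ring
    exact le_of_mul_le_mul_right h8 (by linarith)

/-- the count for a half of the torus -/
theorem o_adj_aux (Q : QuadraticForm F V) (hQ : Nondeg Q) (j : ℕ) (hj : 8 ≤ j) (hd : finrank F V = 2 * j)
    (hp : PlusT Q) (h20 : (2 : F) ≠ 0) (b : Bool) :
    Nat.card (frmQ Q).Iso ≤ 16 * j * Nat.card {x : V ≃ₗ[F] V // x ∈ (frmQ Q).Bp ∧ x ∈ slV F V ∧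
      (b = true → x ∈ E Q) ∧ (b = false → x ∉ E Q)} := by
  obtain ⟨K, _, _, _, e, hK, he⟩ := exists_model Q hQ (by omega) hd hp
  have hV : Finite V := Module.finite_of_finite F
  have h1 : Nat.card (frmQ Q).Iso ≤ Nat.card (frmQ (qS F K)).Iso :=
    Cfsg.Agent.H59.Bs.card_Iso_le (e := e) (polar_iso he) he
  let N : Set ((K × K) ≃ₗ[F] (K × K)) := {x | x ∈ slV F (K × K) ∧ (b = true → x ∈ E (qS F K)) ∧
    (b = false → x ∉ E (qS F K))}
  have h2 : Nat.card {x : (K × K) ≃ₗ[F] (K × K) // x ∈ (frmQ (qS F K)).Bp ∧ x ∈ N} ≤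
      Nat.card {x : V ≃ₗ[F] V // x ∈ (frmQ Q).Bp ∧ x ∈ slV F V ∧ (b = true → x ∈ E Q) ∧ (b = false → x ∉ E Q)} := by
    refine card_cj_le e ?_
    rintro g ⟨hg1, hg2, hg3, hg4⟩
    refine ⟨Cfsg.Agent.H59.Bs.Bp_cj (e := e.symm) (polar_iso (iso_symm he)) (iso_symm he) hg1, cj_mem_slV hg2,
      fun hb => cj_mem_E (iso_symm he) (hg3 hb), fun hb h => hg4 hb ?_⟩
    have h5 := cj_mem_E (e := e) he h
    have h6 : cj e (cj e.symm g) = g := by
      ext1 w
      obtain ⟨v, rfl⟩ := e.surjective w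
      rw [cj_apply]
      obtain ⟨w, rfl⟩ := e.symm.surjective v
      rw [cj_apply, LinearEquiv.apply_symm_apply, LinearEquiv.apply_symm_apply]
    rwa [h6] at h5
  have h3 := card_split (F := F) (K := K) (fun t => (b = true → IsSquare t) ∧ (b = false → ¬ IsSquare t)) N
    (fun g hg x hx => ⟨conj_mem_slV hx.1, fun hb => conj_mem_E (mem_O_of_mem_Iso F hg) (hx.2.1 hb), fun hb h =>
      hx.2.2 hb (by
        have h5 := conj_mem_E (inv_mem (mem_O_of_mem_Iso F hg)) h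
        have h6 : g⁻¹ * (g * x * g⁻¹) * g⁻¹⁻¹ = x := by group
        rwa [h6] at h5)⟩)
    (fun t _ ht => ⟨xt_mem_slV t, fun hb => xt_mem_E_of_sq (by omega) (ht.1 hb), fun hb => xt_notMem_E h20 (ht.2 hb)⟩)
  obtain ⟨y, hy, hy'⟩ := card_le_gd F K
  have h4 := hy' (fun t => (b = true → IsSquare t) ∧ (b = false → ¬ IsSquare t))
  have hS : Nat.card K = Nat.card F ^ j := by rw [Module.natCard_eq_pow_finrank (K := F), hK]
  have h5 : Nat.card Kˣ ≤ Nat.card {t : Kˣ // (b = true → IsSquare t) ∧ (b = false → ¬ IsSquare t)} * 2 := by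
    have h6 := card_sq (K := K)
    have h7 := card_nonsq (F := F) (K := K) h20
    cases b
    · have h8 : Nat.card {t : Kˣ // (false = true → IsSquare t) ∧ (false = false → ¬ IsSquare t)} =
          Nat.card {t : Kˣ // ¬ IsSquare t} := Nat.card_congr (Equiv.subtypeEquivRight (by simp))
      rw [h8]
      omega
    · have h8 : Nat.card {t : Kˣ // (true = true → IsSquare t) ∧ (true = false → ¬ IsSquare t)} =
          Nat.card {t : Kˣ // IsSquare t} := Nat.card_congr (Equiv.subtypeEquivRight (by simp))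
      rw [h8]
      exact h6
  have hq3 : 3 ≤ Nat.card F := by
    have h6 := odd_card_of (F := F) (K := F) h20
    have h7 := Finite.one_lt_card (α := F)
    obtain ⟨k, hk⟩ := h6
    omega
  have hKu : Nat.card Kˣ = Nat.card K - 1 := Nat.card_units K
  have h6 := num_c (E := Nat.card {t : Kˣ // Gd F t ∧ ((b = true → IsSquare t) ∧ (b = false → ¬ IsSquare t))}) hq3 hj hS hy
    (by omega)
  rw [hK] at h3
  rw [← hKu] at h6
  set O₁ := Nat.card (frmQ Q).Iso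
  set O₂ := Nat.card (frmQ (qS F K)).Iso
  set E₂ := Nat.card {t : Kˣ // Gd F t ∧ ((b = true → IsSquare t) ∧ (b = false → ¬ IsSquare t))}
  set B₂ := Nat.card {x : (K × K) ≃ₗ[F] (K × K) // x ∈ (frmQ (qS F K)).Bp ∧ x ∈ N}
  set B₁ := Nat.card {x : V ≃ₗ[F] V // x ∈ (frmQ Q).Bp ∧ x ∈ slV F V ∧ (b = true → x ∈ E Q) ∧ (b = false → x ∉ E Q)}
  have hN : 0 < Nat.card Kˣ := Nat.card_pos
  have h7 : O₁ * Nat.card Kˣ ≤ 16 * j * B₁ * Nat.card Kˣ := by
    calc O₁ * Nat.card Kˣ ≤ O₂ * (8 * E₂) := Nat.mul_le_mul h1 h6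
      _ = 8 * (O₂ * E₂) := by ring
      _ ≤ 8 * (B₂ * (2 * (j * Nat.card Kˣ))) := Nat.mul_le_mul_left _ h3
      _ ≤ 8 * (B₁ * (2 * (j * Nat.card Kˣ))) := Nat.mul_le_mul_left _ (Nat.mul_le_mul_right _ h2)
      _ = _ := by ring
  exact Nat.le_of_mul_le_mul_right h7 hN

/-- **BS08 (c), elements of `E`** -/
theorem o_adj_E (Q : QuadraticForm F V) (hQ : Nondeg Q) (j : ℕ) (hj : 8 ≤ j) (hd : finrank F V = 2 * j)
    (hp : PlusT Q) (h20 : (2 : F) ≠ 0) :
    Nat.card (frmQ Q).Iso ≤ 16 * j * Nat.card {x : V ≃ₗ[F] V // x ∈ (frmQ Q).Bp ∧ x ∈ E Q} := by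
  have hV : Finite V := Module.finite_of_finite F
  refine (o_adj_aux Q hQ j hj hd hp h20 true).trans (Nat.mul_le_mul_left _ ?_)
  have : Finite (V ≃ₗ[F] V) := Finite.of_injective (fun g : V ≃ₗ[F] V => (g : V → V)) DFunLike.coe_injective
  exact Nat.card_le_card_of_injective (fun x => (⟨x.1, x.2.1, x.2.2.2.1 rfl⟩ :
    {x : V ≃ₗ[F] V // x ∈ (frmQ Q).Bp ∧ x ∈ E Q})) fun x y h => Subtype.ext (congrArg (fun z :
    {x : V ≃ₗ[F] V // x ∈ (frmQ Q).Bp ∧ x ∈ E Q} => z.1) h)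

/-- **BS08 (c), elements of determinant one which are not in `E`** -/
theorem o_adj_not (Q : QuadraticForm F V) (hQ : Nondeg Q) (j : ℕ) (hj : 8 ≤ j) (hd : finrank F V = 2 * j)
    (hp : PlusT Q) (h20 : (2 : F) ≠ 0) :
    Nat.card (frmQ Q).Iso ≤ 16 * j * Nat.card {x : V ≃ₗ[F] V // x ∈ (frmQ Q).Bp ∧ x ∈ slV F V ∧ x ∉ E Q} := by
  have hV : Finite V := Module.finite_of_finite F
  refine (o_adj_aux Q hQ j hj hd hp h20 false).trans (Nat.mul_le_mul_left _ ?_)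
  have : Finite (V ≃ₗ[F] V) := Finite.of_injective (fun g : V ≃ₗ[F] V => (g : V → V)) DFunLike.coe_injective
  exact Nat.card_le_card_of_injective (fun x => (⟨x.1, x.2.1, x.2.2.1, x.2.2.2.2 rfl⟩ :
    {x : V ≃ₗ[F] V // x ∈ (frmQ Q).Bp ∧ x ∈ slV F V ∧ x ∉ E Q})) fun x y h => Subtype.ext (congrArg (fun z :
    {x : V ≃ₗ[F] V // x ∈ (frmQ Q).Bp ∧ x ∈ slV F V ∧ x ∉ E Q} => z.1) h)

/-- **BS08 (c)** -/
theorem o_adj (Q : QuadraticForm F V) (hQ : Nondeg Q) (j : ℕ) (hj : 8 ≤ j) (hd : finrank F V = 2 * j)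
    (hp : PlusT Q) (h20 : (2 : F) ≠ 0) :
    Nat.card (frmQ Q).Iso ≤ 16 * j * Nat.card {x : V ≃ₗ[F] V // x ∈ (frmQ Q).Bp ∧ x ∈ E Q} ∧
    Nat.card (frmQ Q).Iso ≤ 16 * j * Nat.card {x : V ≃ₗ[F] V // x ∈ (frmQ Q).Bp ∧ x ∈ slV F V ∧ x ∉ E Q} :=
  ⟨o_adj_E Q hQ j hj hd hp h20, o_adj_not Q hQ j hj hd hp h20⟩

end Final

end Cfsg.Agent.H39.Bs
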