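import Cfsg.Agent.H46.Bs.Singer
import Cfsg.Agent.H46.Bs.FieldCount
import Cfsg.Agent.H59.Bs.Pairs
import Cfsg.Agent.H932.TypeClass

/-!
# S5733, BS08 (helper39): the split torus `(t x, t⁻¹ y)` in the orthogonal space `K × K`, `Q (x, y) = Tr (x y)`

* `qS F K` : the form, `nondeg_qS`, `plusT_qS`;
* `xt F t` : the elements of the torus; `xt_Bp` : they are in `Bp` if `t` is `good`;
* `card_conj` : the elements which conjugate a good element into the set of good elements.
-/

set_option autoImplicit false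
set_option linter.unusedSectionVars false

namespace Cfsg.Agent.H39.Bs

open QuadraticMap Module
open Cfsg.Agent.LieClassical.OrthCore
open Cfsg.Agent.H847.Bs
open Cfsg.Agent.H46.Bs (mL mL_apply mu e_mu au e_au irr_mu exists_of_conj)

section Split

variable (F : Type*) {K : Type*} [Field F] [Field K] [Algebra F K]

variable (K) in
/-- the bilinear form -/
noncomputable def bS : LinearMap.BilinForm F (K × K) :=
  LinearMap.mk₂ F (fun x y => Algebra.trace F K (x.1 * y.2))
    (fun x x' y => by simp only [Prod.fst_add, add_mul, map_add])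
    (fun c x y => by simp only [Prod.smul_fst, smul_mul_assoc, map_smul])
    (fun x y y' => by simp only [Prod.snd_add, mul_add, map_add])
    (fun c x y => by simp only [Prod.smul_snd, mul_smul_comm, map_smul])

variable (K) in
/-- the quadratic form `Tr (x y)` on `K × K` -/
noncomputable def qS : QuadraticForm F (K × K) := LinearMap.BilinMap.toQuadraticMap (bS F K)

theorem qS_apply (x : K × K) : qS F K x = Algebra.trace F K (x.1 * x.2) := rfl

theorem polar_qS (x y : K × K) : polar (qS F K) x y = Algebra.trace F K (x.1 * y.2) + Algebra.trace F K (y.1 * x.2) := by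
  rw [polar, qS_apply, qS_apply, qS_apply, Prod.fst_add, Prod.snd_add, add_mul, mul_add, mul_add]
  simp only [map_add]
  ring

/-- the torus -/
noncomputable def xt (t : Kˣ) : (K × K) ≃ₗ[F] (K × K) := (mL F t).prodCongr (mL F t⁻¹)

theorem xt_apply (t : Kˣ) (x : K × K) : xt F t x = ((t : K) * x.1, ((t⁻¹ : Kˣ) : K) * x.2) := rfl

theorem xt_mul (s t : Kˣ) : xt F (s * t) = xt F s * xt F t := by
  ext1 x
  rw [LinearEquiv.mul_apply, xt_apply, xt_apply, xt_apply, mul_inv, Units.val_mul, Units.val_mul, mul_assoc, mul_assoc]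

theorem xt_injective : Function.Injective (xt F : Kˣ → _) := by
  intro s t h
  have h1 := congrArg (fun g : (K × K) ≃ₗ[F] (K × K) => (g (1, 0)).1) h
  simp only [xt_apply, mul_one] at h1
  exact Units.ext h1

theorem xt_mem_O (t : Kˣ) : xt F t ∈ O (qS F K) := by
  intro x
  rw [xt_apply, qS_apply, qS_apply]
  congr 1
  have : (t : K) * ((t⁻¹ : Kˣ) : K) = 1 := Units.mul_inv t
  linear_combination (x.1 * x.2) * this

theorem mem_Iso_of_mem_O {V : Type*} [AddCommGroup V] [Module F V] {Q : QuadraticForm F V} {g : V ≃ₗ[F] V}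
    (hg : g ∈ O Q) : g ∈ (frmQ Q).Iso :=
  ⟨fun x y => polar_map hg x y, fun x => hg x⟩

theorem mem_O_of_mem_Iso {V : Type*} [AddCommGroup V] [Module F V] {Q : QuadraticForm F V} {g : V ≃ₗ[F] V}
    (hg : g ∈ (frmQ Q).Iso) : g ∈ O Q := hg.2

theorem Iso_eq_O {V : Type*} [AddCommGroup V] [Module F V] (Q : QuadraticForm F V) : (frmQ Q).Iso = O Q :=
  le_antisymm (fun _ h => mem_O_of_mem_Iso F h) fun _ h => mem_Iso_of_mem_O F h

/-- generators which are not conjugate to their inverse -/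
def Gd (t : Kˣ) : Prop := Algebra.adjoin F {(t : K)} = ⊤ ∧ ∀ σ : K ≃ₐ[F] K, σ t ≠ (t : K)⁻¹

variable {F}

/-- an injective image of an irreducible element -/
theorem irr_range {V W : Type*} [AddCommGroup V] [Module F V] [AddCommGroup W] [Module F W] {x : V ≃ₗ[F] V}
    {y : W ≃ₗ[F] W} (ι : V →ₗ[F] W) (hι : Function.Injective ι) (h : ∀ v, y (ι v) = ι (x v)) (hx : Irr x ⊤) :
    Irr y (LinearMap.range ι) := by
  refine ⟨?_, ?_, ?_⟩
  · rintro _ ⟨v, rfl⟩
    exact ⟨x v, (h v).symm⟩
  · intro h0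
    apply hx.ne_bot
    rw [eq_bot_iff]
    intro v _
    have h1 : ι v ∈ LinearMap.range ι := ⟨v, rfl⟩
    rw [h0, Submodule.mem_bot] at h1
    rw [Submodule.mem_bot]
    apply hι
    rw [h1, map_zero]
  · intro Y hY hi
    have hYe : (Y.comap ι).map ι = Y := Submodule.map_comap_eq_of_le hY
    rcases hx.min (Y.comap ι) le_top (fun v hv => by
      rw [Submodule.mem_comap, ← h]
      exact hi _ hv) with h1 | h1
    · left
      rw [← hYe, h1, Submodule.map_bot]
    · right
      rw [← hYe, h1, Submodule.map_top]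

variable [Finite K]

theorem trace_nd {x : K} (hx : ∀ y : K, Algebra.trace F K (x * y) = 0) : x = 0 := by
  have : Finite F := Finite.of_injective _ (algebraMap F K).injective
  exact (traceForm_nondegenerate F K).1 x hx

theorem nondeg_qS : Nondeg (qS F K) := by
  intro x hx
  apply Prod.ext
  · apply trace_nd (F := F)
    intro y
    have := hx (0, y)
    rw [polar_qS] at this
    simpa using this
  · apply trace_nd (F := F)
    intro y
    have := hx (y, 0)
    rw [polar_qS] at this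
    rw [mul_comm]
    simpa using this

theorem finrank_KK : finrank F (K × K) = 2 * finrank F K := by
  have : Finite F := Finite.of_injective _ (algebraMap F K).injective
  have : Module.Finite F K := Module.Finite.of_finite
  rw [finrank_prod, two_mul]

theorem TI_inl : (frmQ (qS F K)).TI (LinearMap.range (LinearMap.inl F K K)) := by
  refine ⟨?_, ?_⟩
  · rintro _ ⟨x, rfl⟩ _ ⟨y, rfl⟩
    show polar (qS F K) _ _ = 0
    rw [polar_qS]
    simp
  · rintro _ ⟨x, rfl⟩
    show qS F K _ = 0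
    rw [qS_apply]
    simp

theorem TI_inr : (frmQ (qS F K)).TI (LinearMap.range (LinearMap.inr F K K)) := by
  refine ⟨?_, ?_⟩
  · rintro _ ⟨x, rfl⟩ _ ⟨y, rfl⟩
    show polar (qS F K) _ _ = 0
    rw [polar_qS]
    simp
  · rintro _ ⟨x, rfl⟩
    show qS F K _ = 0
    rw [qS_apply]
    simp

theorem pl_qS : Cfsg.Agent.H932.Pl (qS F K) :=
  ⟨LinearMap.range (LinearMap.inl F K K), TI_inl.2, by
    rw [LinearMap.finrank_range_of_inj LinearMap.inl_injective, finrank_KK]⟩

theorem irr_mL {t : Kˣ} (ht : Algebra.adjoin F {(t : K)} = ⊤) : Irr (mL F t) ⊤ := irr_mu (LinearEquiv.refl F K) ht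

theorem irr_mL_inv {t : Kˣ} (ht : Algebra.adjoin F {(t : K)} = ⊤) : Irr (mL F t⁻¹) ⊤ := by
  have h := irr_mL ht
  refine ⟨fun _ _ => Submodule.mem_top, h.ne_bot, fun Y hY hi => h.min Y hY ?_⟩
  -- `Y` is stable under `t⁻¹`, hence under `t`
  have hF : Finite F := Finite.of_injective _ (algebraMap F K).injective
  have hfd : Module.Finite F K := Module.Finite.of_finite
  have h1 : Y.map ((mL F t⁻¹ : K ≃ₗ[F] K) : K →ₗ[F] K) ≤ Y := by
    rintro _ ⟨v, hv, rfl⟩
    exact hi v hv
  have h2 : Y.map ((mL F t⁻¹ : K ≃ₗ[F] K) : K →ₗ[F] K) = Y :=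
    Submodule.eq_of_le_of_finrank_eq h1 (LinearEquiv.finrank_map_eq _ _)
  intro v hv
  rw [← h2] at hv
  obtain ⟨w, hw, rfl⟩ := hv
  show (t : K) * (((t⁻¹ : Kˣ) : K) * w) ∈ Y
  rw [← mul_assoc, Units.mul_inv, one_mul]
  exact hw

/-- semilinear maps -/
theorem inter {k : K →ₗ[F] K} {t u : Kˣ} (ht : Algebra.adjoin F {(t : K)} = ⊤) (hk : ∀ x, k (t * x) = u * k x) :
    k = 0 ∨ ∃ (σ : K ≃ₐ[F] K) (w : Kˣ), (∀ x, k x = w * σ x) ∧ σ t = u := by
  rcases (irr_mL ht).min (LinearMap.ker k) le_top (by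
    intro v hv
    rw [LinearMap.mem_ker] at hv ⊢
    rw [mL_apply, hk, hv, mul_zero]) with h0 | h0
  · right
    have hinj : Function.Injective k := LinearMap.ker_eq_bot.1 h0
    have hbij : Function.Bijective k := Finite.injective_iff_bijective.1 hinj
    obtain ⟨σ, w, h1, h2⟩ := exists_of_conj (LinearEquiv.refl F K) (t := t) (t₀ := u) ht
      (h := LinearEquiv.ofBijective k hbij) (by
        ext x
        exact hk x)
    refine ⟨σ, w, fun x => ?_, h2⟩
    have h3 : k x = (LinearEquiv.ofBijective k hbij) x := rfl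
    rw [h3, h1]
    rfl
  · left
    exact LinearMap.ker_eq_top.1 h0

/-- **the good elements are in `Bp`** -/
theorem xt_Bp {t : Kˣ} (ht : Gd F t) : xt F t ∈ (frmQ (qS F K)).Bp := by
  refine ⟨mem_Iso_of_mem_O F (xt_mem_O F t), LinearMap.range (LinearMap.inl F K K), LinearMap.range (LinearMap.inr F K K),
    ?_, TI_inl, TI_inr, ?_, ?_, ?_, ?_⟩
  · exact LinearMap.isCompl_range_inl_inr
  · refine irr_range (x := mL F t) _ LinearMap.inl_injective (fun v => ?_) (irr_mL ht.1)
    rw [xt_apply]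
    simp
  · refine irr_range (x := mL F t⁻¹) _ LinearMap.inr_injective (fun v => ?_) (irr_mL_inv ht.1)
    rw [xt_apply]
    simp
  · rw [LinearMap.finrank_range_of_inj LinearMap.inl_injective, LinearMap.finrank_range_of_inj LinearMap.inr_injective]
  · rintro ⟨φ, hφ⟩
    let ι : K →ₗ[F] LinearMap.range (LinearMap.inl F K K) := (LinearMap.inl F K K).rangeRestrict
    let k : K →ₗ[F] K := LinearMap.snd F K K ∘ₗ (LinearMap.range (LinearMap.inr F K K)).subtype ∘ₗ φ.toLinearMap ∘ₗ ι
    have hkx : ∀ x, k x = ((φ (ι x) : LinearMap.range (LinearMap.inr F K K)) : K × K).2 := fun x => rfl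
    have hk : ∀ x, k (t * x) = ((t⁻¹ : Kˣ) : K) * k x := by
      intro x
      have h1 : xt F t ((ι x : LinearMap.range (LinearMap.inl F K K)) : K × K) ∈ LinearMap.range (LinearMap.inl F K K) :=
        ⟨(t : K) * x, by
          show _ = xt F t ((LinearMap.inl F K K) x)
          rw [xt_apply]
          simp⟩
      have h2 := hφ (ι x) h1
      have h3 : (⟨xt F t ((ι x : LinearMap.range (LinearMap.inl F K K)) : K × K), h1⟩ :
          LinearMap.range (LinearMap.inl F K K)) = ι (t * x) := by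
        apply Subtype.ext
        show xt F t ((LinearMap.inl F K K) x) = (LinearMap.inl F K K) (t * x)
        rw [xt_apply]
        simp
      rw [h3] at h2
      rw [hkx, hkx, h2, xt_apply]
    rcases inter ht.1 hk with h0 | ⟨σ, w, -, h2⟩
    · have h1 : φ (ι 1) = 0 := by
        obtain ⟨z, hz⟩ := (φ (ι 1)).2
        have h2 : z = 0 := by
          have h3 := hkx 1
          rw [h0, ← hz] at h3
          exact h3.symm
        apply Subtype.ext
        rw [← hz, h2, map_zero]
        rfl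
      have h2 : ι 1 = 0 := by
        rwa [LinearEquiv.map_eq_zero_iff] at h1
      have h3 := congrArg (fun z : LinearMap.range (LinearMap.inl F K K) => (z : K × K).1) h2
      exact one_ne_zero (α := K) h3
    · exact ht.2 σ (by rw [h2, Units.val_inv_eq_inv_val])

/-- the structure of the elements which conjugate a good element to a good element -/
theorem conj_struct {t u : Kˣ} (ht : Gd F t) (hu : Gd F u) {h : (K × K) ≃ₗ[F] (K × K)}
    (hh : ∀ x, h (xt F t x) = xt F u (h x)) :
    ∃ (b : Bool) (σ : K ≃ₐ[F] K) (w : Kˣ), (b = true ∧ (∀ x, h (x, 0) = (w * σ x, 0)) ∧ ∀ y, (h (0, y)).1 = 0) ∨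
      (b = false ∧ (∀ x, h (x, 0) = (0, w * σ x)) ∧ ∀ y, (h (0, y)).2 = 0) := by
  let ka : K →ₗ[F] K := LinearMap.fst F K K ∘ₗ (h : (K × K) →ₗ[F] (K × K)) ∘ₗ LinearMap.inl F K K
  let kb : K →ₗ[F] K := LinearMap.snd F K K ∘ₗ (h : (K × K) →ₗ[F] (K × K)) ∘ₗ LinearMap.inl F K K
  let kc : K →ₗ[F] K := LinearMap.fst F K K ∘ₗ (h : (K × K) →ₗ[F] (K × K)) ∘ₗ LinearMap.inr F K K
  let kd : K →ₗ[F] K := LinearMap.snd F K K ∘ₗ (h : (K × K) →ₗ[F] (K × K)) ∘ₗ LinearMap.inr F K K
  have hka : ∀ x, (h (x, 0)).1 = ka x := fun x => rfl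
  have hkb : ∀ x, (h (x, 0)).2 = kb x := fun x => rfl
  have hkc : ∀ x, (h (0, x)).1 = kc x := fun x => rfl
  have hkd : ∀ x, (h (0, x)).2 = kd x := fun x => rfl
  have tt : (t : K) * ((t⁻¹ : Kˣ) : K) = 1 := Units.mul_inv t
  have uu : (u : K) * ((u⁻¹ : Kˣ) : K) = 1 := Units.mul_inv u
  have h1 : ∀ x, ka (t * x) = u * ka x := by
    intro x
    have := congrArg Prod.fst (hh (x, 0))
    rw [xt_apply, xt_apply] at this
    simpa [hka] using this
  have h2 : ∀ x, kb (t * x) = ((u⁻¹ : Kˣ) : K) * kb x := by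
    intro x
    have := congrArg Prod.snd (hh (x, 0))
    rw [xt_apply, xt_apply] at this
    simpa [hkb] using this
  have h3 : ∀ x, kc (t * x) = ((u⁻¹ : Kˣ) : K) * kc x := by
    intro x
    have := congrArg Prod.fst (hh (0, t * x))
    rw [xt_apply, xt_apply] at this
    have h4 : ((t⁻¹ : Kˣ) : K) * (t * x) = x := by
      rw [← mul_assoc, mul_comm ((t⁻¹ : Kˣ) : K), tt, one_mul]
    simp only [mul_zero, h4, hkc] at this
    rw [this, ← mul_assoc, mul_comm ((u⁻¹ : Kˣ) : K), uu, one_mul]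
  have h4 : ∀ x, kd (t * x) = u * kd x := by
    intro x
    have := congrArg Prod.snd (hh (0, t * x))
    rw [xt_apply, xt_apply] at this
    have h4 : ((t⁻¹ : Kˣ) : K) * (t * x) = x := by
      rw [← mul_assoc, mul_comm ((t⁻¹ : Kˣ) : K), tt, one_mul]
    simp only [mul_zero, h4, hkd] at this
    rw [this, ← mul_assoc, uu, one_mul]
  -- two relations contradict each other
  have contra : ∀ (σ τ : K ≃ₐ[F] K), σ t = u → τ t = ((u⁻¹ : Kˣ) : K) → False := by
    intro σ τ hσ hτ
    apply hu.2 (σ.symm.trans τ)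
    rw [← hσ]
    simp only [AlgEquiv.trans_apply, AlgEquiv.symm_apply_apply]
    rw [hτ, hσ, Units.val_inv_eq_inv_val]
  rcases inter ht.1 h1 with ha | ⟨σ, w, ha, hσ⟩
  · -- `ka = 0`
    rcases inter ht.1 h2 with hb | ⟨τ, w, hb, hτ⟩
    · exfalso
      have h5 : h (1, 0) = 0 := by
        apply Prod.ext
        · rw [hka, ha]; rfl
        · rw [hkb, hb]; rfl
      rw [LinearEquiv.map_eq_zero_iff] at h5
      exact one_ne_zero (congrArg Prod.fst h5)
    · have hd : kd = 0 := by
        rcases inter ht.1 h4 with hd | ⟨σ, w', -, hσ⟩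
        · exact hd
        · exact (contra σ τ hσ hτ).elim
      refine ⟨false, τ, w, Or.inr ⟨rfl, fun x => ?_, fun y => ?_⟩⟩
      · apply Prod.ext
        · rw [hka, ha]; rfl
        · rw [hkb, hb]
      · rw [hkd, hd]; rfl
  · have hb : kb = 0 := by
      rcases inter ht.1 h2 with hb | ⟨τ, w', -, hτ⟩
      · exact hb
      · exact (contra σ τ hσ hτ).elim
    have hc : kc = 0 := by
      rcases inter ht.1 h3 with hc | ⟨τ, w', -, hτ⟩
      · exact hc
      · exact (contra σ τ hσ hτ).elim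
    refine ⟨true, σ, w, Or.inl ⟨rfl, fun x => ?_, fun y => ?_⟩⟩
    · apply Prod.ext
      · rw [hka, ha]
      · rw [hkb, hb]; rfl
    · rw [hkc, hc]; rfl

/-- **the elements which conjugate a good element into the good elements** -/
theorem card_conj {t : Kˣ} (ht : Gd F t) (E : Set ((K × K) ≃ₗ[F] (K × K)))
    (hE : ∀ x ∈ E, ∃ u : Kˣ, Gd F u ∧ x = xt F u) :
    Nat.card {h : (K × K) ≃ₗ[F] (K × K) // h ∈ (frmQ (qS F K)).Iso ∧ h * xt F t * h⁻¹ ∈ E} ≤
      2 * (finrank F K * Nat.card Kˣ) := by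
  classical
  have hF : Finite F := Finite.of_injective _ (algebraMap F K).injective
  have hfd : Module.Finite F K := Module.Finite.of_finite
  have hfG : Finite (K ≃ₐ[F] K) := Finite.of_injective (fun g : K ≃ₐ[F] K => (g : K → K)) DFunLike.coe_injective
  have hgal : Nat.card (K ≃ₐ[F] K) ≤ finrank F K := by
    have : IsGalois F K := inferInstance
    exact (IsGalois.card_aut_eq_finrank F K).le
  have key : ∀ z : {h : (K × K) ≃ₗ[F] (K × K) // h ∈ (frmQ (qS F K)).Iso ∧ h * xt F t * h⁻¹ ∈ E},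
      ∃ p : Bool × (K ≃ₐ[F] K) × Kˣ,
        (p.1 = true ∧ (∀ x, z.1 (x, 0) = (p.2.2 * p.2.1 x, 0)) ∧ ∀ y, (z.1 (0, y)).1 = 0) ∨
        (p.1 = false ∧ (∀ x, z.1 (x, 0) = (0, p.2.2 * p.2.1 x)) ∧ ∀ y, (z.1 (0, y)).2 = 0) := by
    rintro ⟨h, h1, h2⟩
    obtain ⟨u, hu, hu'⟩ := hE _ h2
    obtain ⟨b, σ, w, hb⟩ := conj_struct ht hu (h := h) (by
      intro x
      have h3 : h * xt F t = xt F u * h := by rw [← hu']; group
      exact congrArg (fun g : (K × K) ≃ₗ[F] (K × K) => g x) h3)
    exact ⟨(b, σ, w), hb⟩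
  choose f hf using key
  have hinj : Function.Injective f := by
    intro z z' hzz
    have hA : ∀ x, z.1 (x, 0) = z'.1 (x, 0) := by
      intro x
      rcases hf z with ⟨h1, h2, -⟩ | ⟨h1, h2, -⟩ <;> rcases hf z' with ⟨h1', h2', -⟩ | ⟨h1', h2', -⟩
      · rw [h2, h2', hzz]
      · rw [hzz, h1'] at h1
        exact absurd h1 (by decide)
      · rw [hzz, h1'] at h1
        exact absurd h1 (by decide)
      · rw [h2, h2', hzz]
    have hP : ∀ x y, polar (qS F K) (z.1 (x, 0)) (z.1 (0, y) - z'.1 (0, y)) = 0 := by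
      intro x y
      have h3 : polar (qS F K) (z.1 (x, 0)) (z.1 (0, y)) = polar (qS F K) (x, 0) (0, y) := z.2.1.1 _ _
      have h4 : polar (qS F K) (z'.1 (x, 0)) (z'.1 (0, y)) = polar (qS F K) (x, 0) (0, y) := z'.2.1.1 _ _
      rw [← hA] at h4
      rw [sub_eq_add_neg, polar_add_right, polar_neg_right, h3, h4, add_neg_cancel]
    have hB : ∀ y, z.1 (0, y) = z'.1 (0, y) := by
      intro y
      rw [← sub_eq_zero]
      set v := z.1 (0, y) - z'.1 (0, y) with hv
      rcases hf z with ⟨h1, h2, h3⟩ | ⟨h1, h2, h3⟩ <;> rcases hf z' with ⟨h1', h2', h3'⟩ | ⟨h1', h2', h3'⟩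
      · have hv1 : v.1 = 0 := by
          rw [hv, Prod.fst_sub, h3, h3', sub_zero]
        apply Prod.ext
        · exact hv1
        · apply trace_nd (F := F)
          intro x
          have h4 := hP ((f z).2.1.symm (((f z).2.2⁻¹ : Kˣ) * x)) y
          rw [h2, polar_qS, AlgEquiv.apply_symm_apply, ← mul_assoc, Units.mul_inv, one_mul, ← hv] at h4
          simpa [mul_comm] using h4
      · rw [hzz, h1'] at h1
        exact absurd h1 (by decide)
      · rw [hzz, h1'] at h1
        exact absurd h1 (by decide)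
      · have hv1 : v.2 = 0 := by
          rw [hv, Prod.snd_sub, h3, h3', sub_zero]
        apply Prod.ext
        · apply trace_nd (F := F)
          intro x
          have h4 := hP ((f z).2.1.symm (((f z).2.2⁻¹ : Kˣ) * x)) y
          rw [h2, polar_qS, AlgEquiv.apply_symm_apply, ← mul_assoc, Units.mul_inv, one_mul, ← hv] at h4
          simpa using h4
        · exact hv1
    apply Subtype.ext
    ext1 x
    have h5 : x = (x.1, 0) + (0, x.2) := by simp
    rw [h5, map_add, map_add, hA, hB]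
  have hcard := Nat.card_le_card_of_injective f hinj
  rw [Nat.card_prod, Nat.card_prod, Nat.card_eq_fintype_card (α := Bool), Fintype.card_bool] at hcard
  exact hcard.trans (Nat.mul_le_mul_left _ (Nat.mul_le_mul_right _ hgal))

/-- **the count in the split model** -/
theorem card_split (P : Kˣ → Prop) (N : Set ((K × K) ≃ₗ[F] (K × K)))
    (hN : ∀ g ∈ (frmQ (qS F K)).Iso, ∀ x ∈ N, g * x * g⁻¹ ∈ N) (hPN : ∀ t, Gd F t → P t → xt F t ∈ N) :
    Nat.card (frmQ (qS F K)).Iso * Nat.card {t : Kˣ // Gd F t ∧ P t} ≤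
      Nat.card {x : (K × K) ≃ₗ[F] (K × K) // x ∈ (frmQ (qS F K)).Bp ∧ x ∈ N} * (2 * (finrank F K * Nat.card Kˣ)) := by
  have hfA : Finite ((K × K) ≃ₗ[F] (K × K)) := Finite.of_injective (fun g : (K × K) ≃ₗ[F] (K × K) => (g : K × K → K × K))
    DFunLike.coe_injective
  let E : Set ((K × K) ≃ₗ[F] (K × K)) := xt F '' {t | Gd F t ∧ P t}
  have h1 := Cfsg.Agent.H59.Bs.card_pairs (frmQ (qS F K)).Iso E {x | x ∈ (frmQ (qS F K)).Bp ∧ x ∈ N}
    (2 * (finrank F K * Nat.card Kˣ)) (by
      rintro _ ⟨t, ht, rfl⟩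
      refine card_conj ht.1 E ?_
      rintro _ ⟨u, hu, rfl⟩
      exact ⟨u, hu.1, rfl⟩) (by
      rintro g hg _ ⟨t, ht, rfl⟩
      refine ⟨?_, hN g hg _ (hPN t ht.1 ht.2)⟩
      have h2 := Cfsg.Agent.H59.Bs.Bp_cj (Φ := frmQ (qS F K)) (Φ' := frmQ (qS F K)) (e := g) hg.1 hg.2 (xt_Bp ht.1)
      exact h2)
  have h2 : Nat.card E = Nat.card {t : Kˣ // Gd F t ∧ P t} :=
    Nat.card_image_of_injective (xt_injective F) _
  rw [h2] at h1
  exact h1

end Split

end Cfsg.Agent.H39.Bs
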